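import Mathlib
import Cfsg.Agent.Lib.Flavell.TwoA
import Cfsg.Agent.Lib.Core.Fitting
import Cfsg.Agent.Lib.PLocal.Rank2
import Cfsg.Agent.Lib.PLocal.PSolvable
import Cfsg.Agent.Lib.Frob.Thompson
import Cfsg.Agent.Lib.Frob.Kernel
import Cfsg.Agent.Lib.Char.Burnside

/-!
# Thompson's theorem: if every two elements generate a soluble subgroup, the group is soluble
(an elementary proof after Flavell).
-/

set_option autoImplicit false

namespace CfsgLib.Flavell

open scoped Pointwise commutatorElement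
open Subgroup CfsgLib.Coprime CfsgLib.Tech CfsgLib.ZJ

universe u

variable {G : Type*} [Group G] {p : ℕ}

theorem isPGroup_zpowers_of_orderOf {x : G} (hx : orderOf x = p) : IsPGroup p (zpowers x) :=
  isPGroup_zpowers_of_pow (k := 1) (by rw [pow_one, ← hx, pow_orderOf_eq_one])

theorem ne_one_of_orderOf [hp : Fact p.Prime] {x : G} (hx : orderOf x = p) : x ≠ 1 := by
  rintro rfl
  rw [orderOf_one] at hx
  exact hp.out.one_lt.ne hx

theorem mem_normalizer_zpowers [Finite G] {x g : G} (h : g * x * g⁻¹ ∈ zpowers x) :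
    g ∈ normalizer (zpowers x : Set G) :=
  mem_normalizer_of_cj_le (by rw [cj_zpowers, zpowers_le]; exact h)

theorem orderOf_conj' (g x : G) : orderOf (g * x * g⁻¹) = orderOf x :=
  (MulAut.conj g).orderOf_eq x

namespace MinCE

variable [Finite G] (h : MinCE G) [hp : Fact p.Prime] (h5 : 5 ≤ p)
include h h5

theorem comm_of_isPGroup {T : Subgroup G} (hT : IsPGroup p T) : IsMulCommutative T := by
  have : IsCyclic T := by
    by_contra hc
    obtain ⟨A, -, hA, hcard⟩ := PLocal.Rank2.exists_normal_elemAb (by omega) hT hc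
    have hA' := Core.isElementaryAbelian_map hA T.subtype
    have := hA'.1
    exact PLocal.Rank2.not_isCyclic_of_elemAb hA'
      (by rw [Core.card_map_subtype, hcard]; exact PLocal.Rank2.prime_lt_sq)
      (h.not_rank_two h5 (Core.isElementaryAbelian_isPGroup hA'))
  infer_instance

theorem mem_zpowers_of_commute {y z : G} (hy : orderOf y = p) (hz : z ^ p = 1)
    (hc : y * z = z * y) : z ∈ zpowers y := by
  have hE := Core.isElementaryAbelian_sup (A := zpowers y) (B := zpowers z)
    (Core.isElementaryAbelian_zpowers (by rw [← hy, pow_orderOf_eq_one]))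
    (Core.isElementaryAbelian_zpowers hz)
    (by rw [zpowers_le, Core.centralizer_zpowers, mem_centralizer_singleton_iff]; exact hc)
  have := hE.1
  have h1 : ¬ p < Nat.card (zpowers y ⊔ zpowers z : Subgroup G) := fun h1 =>
    PLocal.Rank2.not_isCyclic_of_elemAb hE h1
      (h.not_rank_two h5 (Core.isElementaryAbelian_isPGroup hE))
  have h2 := Core.eq_of_le_of_card_le (le_sup_left (a := zpowers y) (b := zpowers z))
    (by rw [Nat.card_zpowers, hy]; omega)
  rw [h2]
  exact mem_sup_right (mem_zpowers z)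

theorem mem_zpowers_of_mem {T : Subgroup G} (hT : IsPGroup p T) {y z : G} (hy : orderOf y = p)
    (hz : z ^ p = 1) (hyT : y ∈ T) (hzT : z ∈ T) : z ∈ zpowers y :=
  h.mem_zpowers_of_commute h5 hy hz
    (Core.isMulCommutative_iff_forall.1 (h.comm_of_isPGroup h5 hT) y hyT z hzT)

theorem normalizer_le_zpowers {T U : Subgroup G} (hT : IsPGroup p T) {x : G} (hx : orderOf x = p)
    (hxT : x ∈ T) (hU : U ≤ T) (hU1 : U ≠ ⊥) :
    normalizer (U : Set G) ≤ normalizer (zpowers x : Set G) := by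
  obtain ⟨y, hyU, hy⟩ := Core.exists_mem_orderOf_eq_of_isPGroup (hT.to_le hU) hU1
  have hxU : x ∈ U := (zpowers_le.2 hyU)
    (h.mem_zpowers_of_mem h5 hT hy (by rw [← hx, pow_orderOf_eq_one]) (hU hyU) hxT)
  intro g hg
  refine mem_normalizer_zpowers (h.mem_zpowers_of_mem h5 hT hx ?_ hxT
    (hU (Tech.conj_mem_of_mem_normalizer hg hxU)))
  rw [← hx, ← orderOf_conj' g x, pow_orderOf_eq_one]

theorem le_opp_sup {H : Subgroup G} (hH : H ≠ ⊤) {x : G} (hx : orderOf x = p) (hxH : x ∈ H) :
    H ≤ opp p H ⊔ (H ⊓ normalizer (zpowers x : Set G)) := by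
  have := h.proper H hH
  obtain ⟨T, hT, hxT⟩ := exists_isSylowIn_ge (isPGroup_zpowers_of_orderOf hx) (zpowers_le.2 hxH)
  refine (le_opp_sup_normalizer_zj h5 hT).trans (sup_le_sup_left (inf_le_inf_left _ ?_) _)
  refine h.normalizer_le_zpowers h5 hT.pgroup hx (hxT (mem_zpowers x)) (zj_le _)
    (zj_ne_bot (Or.inl rfl) hT.pgroup fun e => ne_one_of_orderOf hx ?_)
  exact mem_bot.1 (e ▸ hxT (mem_zpowers x))

theorem eq_one_of_commute {x y : G} (hx : orderOf x = p) (hy : (orderOf y).Coprime p)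
    (hc : y ∈ centralizer ({x} : Set G)) : y = 1 := by
  set C := centralizer ({x} : Set G) with hC
  have hx1 := ne_one_of_orderOf hx
  have hxp := isPGroup_zpowers_of_orderOf hx
  have := h.proper C (h.centralizer_ne_top hx1)
  have h1 : Cfsg.pPrimeCore p C = ⊥ :=
    (map_eq_bot_iff_of_injective _ C.subtype_injective).1 (h.opp_centralizer hxp hx1)
  have h2 := PLocal.PSolv.centralizer_pCore_le (PLocal.PSolv.of_isSolvable (G := C) (p := p)) h1
  set U := (Cfsg.pCore p C).map C.subtype with hU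
  have hUp : IsPGroup p U := Core.isPGroup_map_pCore C
  have := h.comm_of_isPGroup h5 hUp
  have hxC : x ∈ C := mem_centralizer_singleton_iff.2 rfl
  have hxU : x ∈ U := Core.le_map_pCore (zpowers_le.2 hxC)
    (by rw [hC, ← Core.centralizer_zpowers]; exact centralizer_le_normalizer _) hxp (mem_zpowers x)
  have h3 : zpowers y ≤ centralizer (U : Set G) := by
    refine le_centralizer_of_forall_prime_orderOf
      ((zpowers_le.2 hc).trans (Core.le_normalizer_map_subtype_of_normal _))
      (by rw [Nat.card_zpowers]; exact (Core.isPGroup_coprime_card hUp hy).symm) ?_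
    intro v hv hvp a ha
    obtain ⟨k, hk⟩ := isPGroup_zpowers_iff.1 (isPGroup_zpowers_of_mem hUp hv)
    have hvo : orderOf v = p := by
      rw [hk] at hvp ⊢
      rw [hvp.eq_one_of_pow, pow_one]
    have h4 := h.mem_zpowers_of_mem h5 hUp hx (by rw [← hvo, pow_orderOf_eq_one]) hxU hv
    have h5 : a ∈ centralizer (zpowers x : Set G) := by
      rw [Core.centralizer_zpowers]; exact (zpowers_le.2 hc) ha
    exact (h5 v h4).symm
  have h4 : (⟨y, hc⟩ : C) ∈ Cfsg.pCore p C := h2 fun u hu =>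
    Subtype.ext (h3 (mem_zpowers y) u ⟨u, hu, rfl⟩)
  have h6 : y ∈ U ⊓ zpowers y := ⟨⟨_, h4, rfl⟩, mem_zpowers y⟩
  rwa [Core.isPGroup_inf_eq_bot_of_coprime hUp (by rwa [Nat.card_zpowers]), mem_bot] at h6

theorem mem_closure_conj {K : Subgroup G} {x b : G} (hx : orderOf x = p)
    (hK : (Nat.card K).Coprime p) (hxK : x ∈ normalizer (K : Set G)) (hb : b ∈ K) :
    b ∈ closure ({x, b * x * b⁻¹} : Set G) := by
  obtain ⟨b', -, c, hc, rfl, hb'⟩ :=
    exists_mem_closure_conj (isPGroup_zpowers_of_orderOf hx) hK hxK hb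
  rw [h.eq_one_of_commute h5 hx (Core.subgroup_coprime_card_iff.1 hK c hc.1) hc.2, mul_one]
  exact hb'

theorem le_opp {H K : Subgroup G} (hH : H ≠ ⊤) {x : G} (hx : orderOf x = p) (hxH : x ∈ H)
    (hK : (Nat.card K).Coprime p) (hxK : x ∈ normalizer (K : Set G)) (hKH : K ≤ H) :
    K ≤ opp p H := by
  set W := opp p H ⊔ zpowers x with hW
  have hHW : H ≤ normalizer (W : Set G) := by
    refine (h.le_opp_sup h5 hH hx hxH).trans (sup_le (le_sup_left.trans le_normalizer) ?_)
    exact le_trans (inf_le_inf_right _ (le_normalizer_opp H)) (Core.normalizer_inf_le_normalizer_sup _ _)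
  have hxW : x ∈ W := mem_sup_right (mem_zpowers x)
  have hKW : K ≤ W := by
    intro b hb
    refine (closure_le W).2 ?_ (h.mem_closure_conj h5 hx hK hxK hb)
    rintro y (rfl | rfl)
    exacts [hxW, Tech.conj_mem_of_mem_normalizer (hHW (hKH hb)) hxW]
  have hn : zpowers x ≤ normalizer (opp p H : Set G) := (zpowers_le.2 hxH).trans (le_normalizer_opp H)
  refine le_of_coprime_relIndex (sup_le le_normalizer hn) hKW ?_
  refine Nat.Coprime.coprime_dvd_right (relIndex_dvd_of_le_sup hn le_rfl) ?_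
  rwa [Nat.card_zpowers, hx]

theorem isNilpotent_opp {H : Subgroup G} {x : G} (hx : orderOf x = p) (hxH : x ∈ H) :
    Group.IsNilpotent (opp p H) := by
  refine Frob.isNilpotent_of_fpf (le_normalizer_opp H hxH) ?_ hp.out
    (by rw [← hx, pow_orderOf_eq_one]; exact one_mem _)
  rw [eq_bot_iff]
  intro c hc
  exact h.eq_one_of_commute h5 hx (Core.subgroup_coprime_card_iff.1 (coprime_opp H) c hc.1) hc.2

theorem coatom_eq {x : G} (hx : orderOf x = p) (D : Subgroup G) : D ≠ ⊥ → ∀ M M' : Subgroup G,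
    IsCoatom M → IsCoatom M' → x ∈ M → x ∈ M' → D = opp p M ⊓ opp p M' → M = M' := by
  induction D using WellFoundedGT.induction with
  | _ D ih =>
  intro hD M M' hM hM' hxM hxM' e
  have hDs : Group.IsSolvable D := by
    have := h.proper M hM.1
    exact Core.isSolvable_of_le (e.le.trans (inf_le_left.trans (opp_le M)))
  obtain ⟨N, hN, hDN⟩ := (eq_top_or_exists_le_coatom (normalizer (D : Set G))).resolve_left
    (h.normalizer_ne_top hD hDs)
  have hxD : x ∈ normalizer (D : Set G) := by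
    rw [e]
    exact inf_normalizer_le_normalizer_inf ⟨le_normalizer_opp M hxM, le_normalizer_opp M' hxM'⟩
  have key : ∀ L : Subgroup G, IsCoatom L → x ∈ L → D ≤ opp p L → L = N := by
    intro L hL hxL hDL
    rcases hDL.eq_or_lt with e1 | e1
    · exact (hL.le_iff.1 ((le_normalizer_opp L).trans (e1 ▸ hDN))).resolve_left hN.1 |>.symm
    · have := h.isNilpotent_opp h5 hx hxL
      have h1 := Core.lt_inf_normalizer_of_isNilpotent e1
      have h2 : opp p L ⊓ normalizer (D : Set G) ≤ opp p N :=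
        h.le_opp h5 hN.1 hx (hDN hxD)
          ((coprime_opp L).coprime_dvd_left (card_dvd_of_le inf_le_left))
          (inf_normalizer_le_normalizer_inf ⟨le_normalizer_opp L hxL, le_normalizer hxD⟩)
          (inf_le_right.trans hDN)
      have h3 : D < opp p L ⊓ opp p N := h1.trans_le (le_inf inf_le_left h2)
      exact ih _ h3 (fun e => hD (eq_bot_iff.2 (e ▸ h3.le))) L N hL hN hxL (hDN hxD) rfl
  rw [key M hM hxM (e.le.trans inf_le_left), key M' hM' hxM' (e.le.trans inf_le_right)]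

theorem coatom_eq_of_mem {x b : G} (hx : orderOf x = p) {M M' : Subgroup G} (hM : IsCoatom M)
    (hM' : IsCoatom M') (hxM : x ∈ M) (hxM' : x ∈ M') (hb : b ∈ opp p M) (hb1 : b ≠ 1)
    (hbM' : b ∈ M') : M = M' := by
  refine h.coatom_eq h5 hx _ (fun e => hb1 ?_) M M' hM hM' hxM hxM' rfl
  rw [← mem_bot, ← e]
  refine ⟨hb, h.le_opp h5 (K := opp p M ⊓ M') hM'.1 hx hxM'
    ((coprime_opp M).coprime_dvd_left (card_dvd_of_le inf_le_left))
    (inf_normalizer_le_normalizer_inf ⟨le_normalizer_opp M hxM, le_normalizer hxM'⟩)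
    inf_le_right ⟨hb, hbM'⟩⟩

omit h5 hp in
theorem exists_coatom (a b : G) : ∃ M : Subgroup G, IsCoatom M ∧ a ∈ M ∧ b ∈ M := by
  obtain ⟨M, hM, hle⟩ := (eq_top_or_exists_le_coatom _).resolve_left (h.two a b)
  exact ⟨M, hM, hle (subset_closure (by simp)), hle (subset_closure (by simp))⟩

theorem normalizer_le_coatom {x : G} (hx : orderOf x = p) {M : Subgroup G} (hM : IsCoatom M)
    (hxM : x ∈ M) : normalizer (zpowers x : Set G) ≤ M := by
  by_cases ho : opp p M = ⊥
  · have h1 := h.le_opp_sup h5 hM.1 hx hxM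
    rw [ho, bot_sup_eq] at h1
    exact ((hM.le_iff.1 (h1.trans inf_le_right)).resolve_left (h.normalizer_ne_top
      (by simpa using ne_one_of_orderOf hx) (isSolvable_zpowers x))).le
  · obtain ⟨⟨b, hb⟩, hb1⟩ := ne_bot_iff_exists_ne_one.1 ho
    intro n hn
    obtain ⟨h1, h2⟩ := mem_closure_mul_of_mem
      (h.mem_closure_conj h5 hx (coprime_opp M) (le_normalizer_opp M hxM) hb) hn
    obtain ⟨M', hM', hxM', hbn⟩ := h.exists_coatom x (b * n)
    have hle : closure ({x, b * n} : Set G) ≤ M' := by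
      rw [closure_le]
      rintro y (rfl | rfl)
      exacts [hxM', hbn]
    rw [h.coatom_eq_of_mem h5 hx hM hM' hxM hxM' hb (fun e => hb1 (Subtype.ext e)) (hle h1)]
    exact hle h2

theorem line_eq {x y : G} (hx : orderOf x = p) (hy : orderOf y = p) (hxy : y ∉ zpowers x)
    {M M' : Subgroup G} (hM : IsCoatom M) (hM' : IsCoatom M') (hxM : x ∈ M) (hxM' : x ∈ M')
    (hyM : y ∈ M) (hyM' : y ∈ M') : M = M' := by
  obtain ⟨T, hT, hxT⟩ := exists_isSylowIn_ge (isPGroup_zpowers_of_orderOf hx) (zpowers_le.2 hxM)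
  obtain ⟨m, hm, hmy⟩ := hT.exists_conj_mem hyM (isPGroup_zpowers_of_orderOf hy)
  have h1 : x ∈ zpowers (m * y * m⁻¹) := h.mem_zpowers_of_mem h5 hT.pgroup
    (by rw [orderOf_conj', hy]) (by rw [← hx, pow_orderOf_eq_one]) hmy (hxT (mem_zpowers x))
  have h1' : m * y * m⁻¹ ∈ zpowers x := h.mem_zpowers_of_mem h5 hT.pgroup hx
    (by rw [← hy, ← orderOf_conj' m y, pow_orderOf_eq_one]) (hxT (mem_zpowers x)) hmy
  have h2 : cj m⁻¹ (zpowers x) = zpowers y := by
    rw [le_antisymm (zpowers_le.2 h1) (zpowers_le.2 h1'), ← cj_zpowers, cj_inv_cj]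
  obtain ⟨b, hb, n, hn, hbn⟩ := (Core.mem_sup_of_le_normalizer_left
    (inf_le_left.trans (le_normalizer_opp M))).1 (h.le_opp_sup h5 hM.1 hx hxM (M.inv_mem hm))
  rw [← hbn, cj_mul, mem_normalizer_iff_cj.1 hn.2] at h2
  have hb1 : b ≠ 1 := by
    rintro rfl
    rw [cj_one] at h2
    exact hxy (h2 ▸ mem_zpowers y)
  refine h.coatom_eq_of_mem h5 hx hM hM' hxM hxM' hb hb1 ?_
  refine (closure_le M').2 ?_ (h.mem_closure_conj h5 hx (coprime_opp M) (le_normalizer_opp M hxM) hb)
  rintro z (rfl | rfl)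
  · exact hxM'
  · exact (zpowers_le.2 hyM') (h2 ▸ conj_mem_cj.2 (mem_zpowers x))

theorem eq_one_of_mem_normalizers {x x' t : G} (hx : orderOf x = p) (hx' : orderOf x' = p)
    (hxx : x' ∉ zpowers x) (ht : t ∈ normalizer (zpowers x : Set G))
    (ht' : t ∈ normalizer (zpowers x' : Set G)) : t = 1 := by
  have := h.simple
  obtain ⟨M, hM, hxM, hx'M⟩ := h.exists_coatom x x'
  have key : ∀ r : G, orderOf r = p → ∀ M₁ M₂ : Subgroup G, IsCoatom M₁ → IsCoatom M₂ → M₁ ≠ M₂ →
      r ∈ M₁ → r ∈ M₂ → t ∈ M₁ → t ∈ M₂ → t ∈ normalizer (zpowers r : Set G) := by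
    intro r hr M₁ M₂ h1 h2 hne hr1 hr2 ht1 ht2
    refine mem_normalizer_zpowers ?_
    by_contra hc
    exact hne (h.line_eq h5 hr (by rw [orderOf_conj', hr]) hc h1 h2 hr1 hr2
      (M₁.mul_mem (M₁.mul_mem ht1 hr1) (M₁.inv_mem ht1))
      (M₂.mul_mem (M₂.mul_mem ht2 hr2) (M₂.inv_mem ht2)))
  have hout : ∀ r : G, orderOf r = p → r ∉ M → t ∈ normalizer (zpowers r : Set G) := by
    intro r hr hrM
    obtain ⟨M₁, h1, hx1, hr1⟩ := h.exists_coatom x r
    obtain ⟨M₂, h2, hx2, hr2⟩ := h.exists_coatom x' r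
    refine key r hr M₁ M₂ h1 h2 ?_ hr1 hr2 (h.normalizer_le_coatom h5 hx h1 hx1 ht)
      (h.normalizer_le_coatom h5 hx' h2 hx2 ht')
    rintro rfl
    exact hrM (h.line_eq h5 hx hx' hxx hM h1 hxM hx1 hx'M hx2 ▸ hr1)
  obtain ⟨r', hr', hr'M⟩ : ∃ r' : G, orderOf r' = p ∧ r' ∉ M := by
    by_contra hc
    push Not at hc
    have h1 : x ∈ M.normalCore := fun g => hc _ (by rw [orderOf_conj', hx])
    rcases (inferInstance : M.normalCore.Normal).eq_bot_or_eq_top with e | e
    · exact ne_one_of_orderOf hx (mem_bot.1 (e ▸ h1))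
    · exact hM.1 (eq_top_iff.2 (e ▸ M.normalCore_le))
  have hall : ∀ r : G, orderOf r = p → t ∈ normalizer (zpowers r : Set G) := by
    intro r hr
    by_cases hrM : r ∈ M
    · obtain ⟨M₃, h3, hr3, hr'3⟩ := h.exists_coatom r r'
      refine key r hr M M₃ hM h3 ?_ hrM hr3 (h.normalizer_le_coatom h5 hx hM hxM ht)
        (h.normalizer_le_coatom h5 hr' h3 hr'3 (hout r' hr' hr'M))
      rintro rfl
      exact hr'M hr'3
    · exact hout r hr hrM
  have h1 : t ∈ (normalizer (zpowers x : Set G)).normalCore := by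
    intro g
    have h2 := hall (g⁻¹ * x * g⁻¹⁻¹) (by rw [orderOf_conj', hx])
    rw [← cj_zpowers, ← cj_normalizer, mem_cj, inv_inv] at h2
    exact h2
  rcases (inferInstance : (normalizer (zpowers x : Set G)).normalCore.Normal).eq_bot_or_eq_top
    with e | e
  · exact mem_bot.1 (e ▸ h1)
  · exact absurd (eq_top_iff.2 (e ▸ normalCore_le _)) (h.normalizer_ne_top
      (by simpa using ne_one_of_orderOf hx) (isSolvable_zpowers x))

theorem not_dvd : ¬ p ∣ Nat.card G := by
  intro hd
  have := h.simple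
  obtain ⟨x, hx⟩ := exists_prime_orderOf_dvd_card' p hd
  refine Frob.not_frob_of_isSimpleGroup (normalizer (zpowers x : Set G)) ⟨fun e => ?_,
    h.normalizer_ne_top (by simpa using ne_one_of_orderOf hx) (isSolvable_zpowers x), ?_⟩
  · exact ne_one_of_orderOf hx (mem_bot.1 (e ▸ le_normalizer (mem_zpowers x)))
  · intro g hg
    rw [eq_bot_iff]
    rintro t ⟨ht1, ht2⟩
    rw [smul_eq_cj, cj_normalizer, cj_zpowers] at ht2
    exact h.eq_one_of_mem_normalizers h5 hx (by rw [orderOf_conj', hx])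
      (fun e => hg (mem_normalizer_zpowers e)) ht1 ht2

end MinCE

theorem not_minCE [Finite G] : ¬ MinCE G := by
  intro h
  refine h.notSolv (Char.isSolvable_of_prime_dvd_card Nat.prime_two Nat.prime_three fun r hr hd => ?_)
  by_contra hc
  push Not at hc
  have := Fact.mk hr
  exact h.not_dvd (hr.five_le_of_ne_two_of_ne_three hc.1 hc.2) hd

theorem two_gen_aux (n : ℕ) : ∀ (G : Type u) [Group G] [Finite G], Nat.card G = n →
    (∀ a b : G, Group.IsSolvable (closure ({a, b} : Set G))) → Group.IsSolvable G := by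
  induction n using Nat.strong_induction_on with
  | _ n ih =>
  intro G _ _ hn h
  by_contra hs
  have hprop : ∀ H : Subgroup G, H ≠ ⊤ → Group.IsSolvable H := by
    intro H hH
    refine ih _ (hn ▸ Core.card_lt_of_ne_top hH) H rfl fun a b => ?_
    have := h a b
    have e : (closure ({a, b} : Set H)).map H.subtype = closure {(a : G), (b : G)} := by
      rw [MonoidHom.map_closure, Set.image_pair]; rfl
    rw [← e] at this
    exact Core.isSolvable_of_mulEquiv (equivMapOfInjective _ _ H.subtype_injective).symm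
  have hnt : Nontrivial G := by
    by_contra h1
    rw [not_nontrivial_iff_subsingleton] at h1
    exact hs inferInstance
  refine not_minCE (G := G) ⟨⟨fun N hN => ?_⟩, hs, hprop, fun a b e => hs ?_⟩
  · by_contra hc
    push Not at hc
    have := hprop N hc.2
    have : Group.IsSolvable (G ⧸ N) := by
      refine ih _ (hn ▸ Core.card_quotient_lt_of_ne_bot hc.1) (G ⧸ N) rfl fun a b => ?_
      obtain ⟨a, rfl⟩ := QuotientGroup.mk'_surjective N a
      obtain ⟨b, rfl⟩ := QuotientGroup.mk'_surjective N b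
      have := h a b
      rw [← Set.image_pair, ← MonoidHom.map_closure]
      exact Core.isSolvable_map _ _
    exact hs (Group.isSolvable_of_ker_le_range N.subtype (QuotientGroup.mk' N) (by simp))
  · have := h a b
    rw [e] at this
    exact Core.isSolvable_of_mulEquiv (topEquiv : (⊤ : Subgroup G) ≃* G)

/-- Thompson's theorem. -/
theorem isSolvable_of_two_generated [Finite G]
    (h : ∀ a b : G, Group.IsSolvable (closure ({a, b} : Set G))) : Group.IsSolvable G :=
  two_gen_aux _ G rfl h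

end CfsgLib.Flavell
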